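import Cfsg.Agent.Classical.Symp.InvolutionTwoClasses
import Cfsg.Agent.Classical.Orth.Index
import Cfsg.Agent.OrthGeo.InvolutionTwo
import Cfsg.Agent.OrthGeo.Forms

/-!
Centralisers of involutions of `O⁺₂ₘ` in characteristic two, from those in `Sp₂ₘ`: the quadratic forms with
the standard polar form in the orbit of `Q` are the `Q + f(b, ·)²` with `Q b` of the form `t² + t`.
-/

set_option autoImplicit false
set_option linter.unusedSectionVars false

namespace CfsgLib.OrthTwoCent

open Matrix CfsgLib.Classical.Symp CfsgLib.Classical.SympCharTwo CfsgLib.OrthGeo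

variable {F : Type*} [Field F] [Fintype F] [CharP F 2] {m : ℕ}

local notation "B" => Cfsg.sympForm m F
local notation "q₀" => Cfsg.quadFormPlus m F
local notation "Sp" => Matrix.symplecticGroup (Fin m) F
local notation "V" => Fin m ⊕ Fin m → F
local notation "Mat" => Matrix (Fin m ⊕ Fin m) (Fin m ⊕ Fin m) F

theorem q_add (u v : V) : q₀ (u + v) = q₀ u + q₀ v + B u v := by
  rw [form_apply]
  simp only [Cfsg.quadFormPlus, Pi.add_apply, CharTwo.sub_eq_add, ← Finset.sum_add_distrib]
  exact Finset.sum_congr rfl fun i _ => by ring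

theorem q_smul (c : F) (v : V) : q₀ (c • v) = c ^ 2 * q₀ v := by
  simp only [Cfsg.quadFormPlus, Finset.mul_sum, Pi.smul_apply, smul_eq_mul]
  exact Finset.sum_congr rfl fun i _ => by ring

theorem add_self_vec (v : V) : v + v = 0 := funext fun _ => CharTwo.add_self_eq_zero _

/-- The Artin–Schreier map. -/
def artin : F →+ F :=
  AddMonoidHom.mk' (fun t => t ^ 2 + t) fun s t => by rw [CharTwo.add_sq]; abel

/-- The subgroup of values `t² + t`. -/
def AS (F : Type*) [Field F] [CharP F 2] : AddSubgroup F := (artin (F := F)).range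

theorem mem_AS {x : F} : x ∈ AS F ↔ ∃ t, t ^ 2 + t = x := Iff.rfl

theorem index_AS : (AS F).index = 2 := by
  classical
  have hk : Nat.card (artin (F := F)).ker = 2 := by
    have : ((artin (F := F)).ker : Set F) = {0, 1} := by
      ext x
      rw [SetLike.mem_coe, AddMonoidHom.mem_ker]
      show x ^ 2 + x = 0 ↔ x ∈ ({0, 1} : Set F)
      rw [show x ^ 2 + x = x * (x + 1) by ring, mul_eq_zero, CharTwo.add_eq_zero]
      simp
    rw [show Nat.card (artin (F := F)).ker = Nat.card ((artin (F := F)).ker : Set F) from rfl, this,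
      Nat.card_coe_set_eq, Set.ncard_pair zero_ne_one]
  have h1 := (AS F).card_mul_index
  have h2 := (artin (F := F)).ker.card_mul_index
  rw [hk, AddSubgroup.index_ker, show Nat.card ((artin (F := F)).range) = Nat.card (AS F) from rfl] at h2
  have h3 : 0 < Nat.card (AS F) := Nat.card_pos
  nlinarith

theorem exists_not_mem_AS : ∃ a : F, a ∉ AS F := by
  by_contra h
  push Not at h
  have h1 := index_AS (F := F)
  rw [(AddSubgroup.eq_top_iff' (AS F)).2 h, AddSubgroup.index_top] at h1
  omega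

theorem mem_AS_add_iff {a : F} (ha : a ∉ AS F) (x : F) : x + a ∈ AS F ↔ x ∉ AS F := by
  rw [AddSubgroup.add_mem_iff_of_index_two index_AS]
  simp [ha]

/-- A bijection reversing a property cuts a finite type in half. -/
theorem two_mul_card_subtype {X : Type*} [Finite X] (p : X → Prop) (σ : X ≃ X) (h : ∀ x, p (σ x) ↔ ¬ p x) :
    2 * Nat.card {x // p x} = Nat.card X := by
  classical
  have e : {x // p x} ≃ {x // ¬ p x} := Equiv.subtypeEquiv σ fun x => by rw [h, not_not]
  have hs := Nat.card_congr (Equiv.sumCompl p)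
  rw [Nat.card_sum, ← Nat.card_congr e] at hs
  omega

/-- Vectors whose value lies in `AS`. -/
abbrev Good (v : V) : Prop := q₀ v ∈ AS F

theorem two_mul_card_good :
    2 * Nat.card {v : V // Good v} = Fintype.card F ^ m * (Fintype.card F ^ m + 1) := by
  classical
  obtain ⟨a, ha⟩ := exists_not_mem_AS (F := F)
  let P : (Fin m → F) → (Fin m → F) → Prop := fun x y => ∑ i, x i * y i ∈ AS F
  have e : {v : V // Good v} ≃ Σ x : Fin m → F, {y : Fin m → F // P x y} :=
    { toFun := fun v => ⟨fun i => v.1 (.inl i), fun i => v.1 (.inr i), v.2⟩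
      invFun := fun p => ⟨Sum.elim p.1 p.2.1, p.2.2⟩
      left_inv := fun v => Subtype.ext (funext fun i => by rcases i with i | i <;> rfl)
      right_inv := fun p => rfl }
  have hx : ∀ x : Fin m → F, x ≠ 0 → 2 * Nat.card {y // P x y} = Fintype.card F ^ m := by
    intro x hx0
    obtain ⟨j, hj⟩ := Function.ne_iff.1 hx0
    rw [two_mul_card_subtype (P x) (Equiv.addRight (Pi.single j (a / x j))) fun y => ?_]
    · rw [Nat.card_fun, Nat.card_fin, Nat.card_eq_fintype_card]
    · show ∑ i, x i * (y i + (Pi.single j (a / x j) : Fin m → F) i) ∈ AS F ↔ _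
      rw [Finset.sum_congr rfl fun i _ => mul_add (x i) _ _, Finset.sum_add_distrib]
      rw [Fintype.sum_eq_single (f := fun i => x i * (Pi.single j (a / x j) : Fin m → F) i) j
        fun i hi => by simp [hi], Pi.single_eq_same, mul_div_cancel₀ _ (by simpa using hj)]
      exact mem_AS_add_iff ha _
  have h0 : Nat.card {y // P 0 y} = Fintype.card F ^ m := by
    rw [Nat.card_congr (Equiv.subtypeUnivEquiv fun y => by simp [P, zero_mem]), Nat.card_fun, Nat.card_fin,
      Nat.card_eq_fintype_card]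
  rw [Nat.card_congr e, Nat.card_sigma, Finset.mul_sum,
    ← Finset.add_sum_erase _ _ (Finset.mem_univ (0 : Fin m → F)), h0,
    Finset.sum_congr rfl fun x hx' => hx x (Finset.ne_of_mem_erase hx'), Finset.sum_const,
    Finset.card_erase_of_mem (Finset.mem_univ _), Finset.card_univ, Fintype.card_fun, Fintype.card_fin, smul_eq_mul]
  obtain ⟨n, hn⟩ : ∃ n, Fintype.card F ^ m = n + 1 := ⟨Fintype.card F ^ m - 1, by
    have : 0 < Fintype.card F ^ m := pow_pos Fintype.card_pos _
    omega⟩
  rw [hn, Nat.add_sub_cancel]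
  ring

variable {t : Matrix.symplecticGroup (Fin m) F} (ht : t * t = 1)

theorem good_fixed_kernel (v : V) :
    v ∈ LinearMap.ker (disp t) ↔ (t : Mat) *ᵥ v = v := by
  rw [LinearMap.mem_ker, disp_apply]
  constructor
  · intro h
    funext i
    exact CharTwo.add_eq_zero.1 (congrFun h i)
  · intro h; rw [h, add_self_vec]

include ht in
theorem form_range_fixed {z b : V} (hz : z ∈ LinearMap.range (disp t)) (hb : (t : Mat) *ᵥ b = b) : B b z = 0 := by
  obtain ⟨u, rfl⟩ := hz
  rw [← disp_adjoint ht, LinearMap.mem_ker.1 ((good_fixed_kernel b).2 hb), form_zero_left]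

theorem q_disp (v : V) (hiso : ∀ u, q₀ ((t : Mat) *ᵥ u) = q₀ u) : q₀ (disp t v) = B v ((t : Mat) *ᵥ v) := by
  rw [disp_apply, q_add, hiso, CharTwo.add_self_eq_zero, zero_add, form_comm]

theorem card_fixed : Nat.card {v : V // (t : Mat) *ᵥ v = v} = Fintype.card F ^ (2 * m - invRank t) := by
  rw [← Nat.card_congr (Equiv.subtypeEquivRight (good_fixed_kernel (t := t))),
    Module.natCard_eq_pow_finrank (K := F), Nat.card_eq_fintype_card]
  congr 1
  have h := LinearMap.finrank_range_add_finrank_ker (disp t)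
  rw [Module.finrank_fintype_fun_eq_card, Fintype.card_sum, Fintype.card_fin] at h
  show _ = 2 * m - Module.finrank F (LinearMap.range (disp t))
  omega

include ht in
theorem two_mul_card_good_fixed_nonalt (hiso : ∀ u, q₀ ((t : Mat) *ᵥ u) = q₀ u) (hna : ¬ InvAlt t) :
    2 * Nat.card {b : {v : V // (t : Mat) *ᵥ v = v} // Good b.1} = Fintype.card F ^ (2 * m - invRank t) := by
  rw [← card_fixed (t := t)]
  obtain ⟨a, ha⟩ := exists_not_mem_AS (F := F)
  simp only [InvAlt, not_forall] at hna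
  obtain ⟨v, hv⟩ := hna
  obtain ⟨c, hc⟩ := exists_sqrt (a / q₀ (disp t v))
  have hz : q₀ (c • disp t v) = a := by
    rw [q_smul, hc, div_mul_cancel₀ _ (by rw [q_disp v hiso]; exact hv)]
  have hzf : (t : Mat) *ᵥ (c • disp t v) = c • disp t v := by
    rw [mulVec_smul, (good_fixed_kernel _).1 (LinearMap.mem_ker.2 (disp_disp ht v))]
  refine two_mul_card_subtype _
    { toFun := fun b => ⟨b.1 + c • disp t v, by rw [mulVec_add, b.2, hzf]⟩
      invFun := fun b => ⟨b.1 + c • disp t v, by rw [mulVec_add, b.2, hzf]⟩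
      left_inv := fun b => Subtype.ext (by show b.1 + c • disp t v + c • disp t v = b.1; rw [add_assoc, add_self_vec, add_zero])
      right_inv := fun b => Subtype.ext (by show b.1 + c • disp t v + c • disp t v = b.1; rw [add_assoc, add_self_vec, add_zero]) } fun b => ?_
  show q₀ (b.1 + c • disp t v) ∈ AS F ↔ _
  rw [q_add, hz, form_range_fixed ht ((LinearMap.range _).smul_mem c (LinearMap.mem_range_self _ v)) b.2, add_zero]
  exact mem_AS_add_iff ha _

include ht in
theorem two_mul_card_good_fixed_alt (hiso : ∀ u, q₀ ((t : Mat) *ᵥ u) = q₀ u) (halt : InvAlt t) :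
    2 * Nat.card {b : {v : V // (t : Mat) *ᵥ v = v} // Good b.1} =
      Fintype.card F ^ m + Fintype.card F ^ (2 * m - invRank t) := by
  classical
  obtain ⟨a, ha⟩ := exists_not_mem_AS (F := F)
  let R := LinearMap.range (disp t)
  let M := {v : V // (t : Mat) *ᵥ v ≠ v}
  have hRfix : ∀ z : R, (t : Mat) *ᵥ (z : V) = z := by
    rintro ⟨_, u, rfl⟩
    exact (good_fixed_kernel _).1 (LinearMap.mem_ker.2 (disp_disp ht u))
  have hz0 : ∀ z : R, q₀ (z : V) = 0 := by
    rintro ⟨_, u, rfl⟩
    show q₀ (disp t u) = 0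
    rw [q_disp u hiso, halt u]
  let shift : R → (M ≃ M) := fun z =>
    { toFun := fun v => ⟨v.1 + z, by rw [mulVec_add, hRfix]; simpa using v.2⟩
      invFun := fun v => ⟨v.1 + z, by rw [mulVec_add, hRfix]; simpa using v.2⟩
      left_inv := fun v => Subtype.ext (by show v.1 + (z : V) + (z : V) = v.1; rw [add_assoc, add_self_vec, add_zero])
      right_inv := fun v => Subtype.ext (by show v.1 + (z : V) + (z : V) = v.1; rw [add_assoc, add_self_vec, add_zero]) }
  have hline : ∀ v : M, 2 * Nat.card {z : R // Good (v.1 + (z : V))} = Nat.card R := by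
    rintro ⟨v, hv⟩
    obtain ⟨u, hu⟩ : ∃ u, B v (disp t u) ≠ 0 := by
      by_contra hcon
      push Not at hcon
      refine hv ((good_fixed_kernel v).1 (LinearMap.mem_ker.2 (eq_zero_of_form_eq_zero fun u => ?_)))
      rw [disp_adjoint ht]
      exact hcon u
    refine two_mul_card_subtype _
      (Equiv.addRight (⟨(a / B v (disp t u)) • disp t u, R.smul_mem _ (LinearMap.mem_range_self _ u)⟩ : R)) fun z => ?_
    show q₀ (v + ((z : V) + (a / B v (disp t u)) • disp t u)) ∈ AS F ↔ _
    rw [← add_assoc, q_add, show q₀ ((a / B v (disp t u)) • disp t u) = 0 from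
      hz0 ⟨_, R.smul_mem _ (LinearMap.mem_range_self _ u)⟩, add_zero, form_add_left, form_smul_right,
      form_range_fixed ht (R.smul_mem _ (LinearMap.mem_range_self _ u)) (hRfix z), add_zero,
      div_mul_cancel₀ _ hu]
    exact mem_AS_add_iff ha _
  have hM : 2 * Nat.card {v : M // Good v.1} = Nat.card M := by
    have e1 : ({v : M // Good v.1} × R) ≃ Σ v : M, {z : R // Good (v.1 + (z : V))} :=
      { toFun := fun p => ⟨shift p.2 p.1.1, p.2, by
          show q₀ (p.1.1.1 + (p.2 : V) + (p.2 : V)) ∈ AS F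
          rw [add_assoc, add_self_vec, add_zero]; exact p.1.2⟩
        invFun := fun p => (⟨shift p.2.1 p.1, p.2.2⟩, p.2.1)
        left_inv := fun p => Prod.ext (Subtype.ext ((shift p.2).left_inv p.1.1)) rfl
        right_inv := fun p => by
          obtain ⟨v, z, hz⟩ := p
          exact Sigma.subtype_ext ((shift z).left_inv v) rfl }
    have h := Nat.card_congr e1
    rw [Nat.card_prod, Nat.card_sigma] at h
    have hR : 0 < Nat.card R := Nat.card_pos
    refine Nat.eq_of_mul_eq_mul_right hR ?_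
    rw [mul_assoc, h, Finset.mul_sum, Finset.sum_congr rfl fun v _ => hline v, Finset.sum_const,
      Finset.card_univ, smul_eq_mul, Nat.card_eq_fintype_card (α := M)]
  have hsplit : Nat.card {v : V // Good v} =
      Nat.card {b : {v : V // (t : Mat) *ᵥ v = v} // Good b.1} + Nat.card {v : M // Good v.1} := by
    rw [← Nat.card_congr (Equiv.sumCompl fun v : {v : V // Good v} => (t : Mat) *ᵥ v.1 = v.1), Nat.card_sum]
    congr 1
    · exact Nat.card_congr
        { toFun := fun x => ⟨⟨x.1.1, x.2⟩, x.1.2⟩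
          invFun := fun x => ⟨⟨x.1.1, x.2⟩, x.1.2⟩ }
    · exact Nat.card_congr
        { toFun := fun x => ⟨⟨x.1.1, x.2⟩, x.1.2⟩
          invFun := fun x => ⟨⟨x.1.1, x.2⟩, x.1.2⟩ }
  have hV := Nat.card_congr (Equiv.sumCompl fun v : V => (t : Mat) *ᵥ v = v)
  rw [Nat.card_sum, card_fixed, Nat.card_fun, Nat.card_sum, Nat.card_fin, Nat.card_eq_fintype_card (α := F),
    pow_add] at hV
  have hg := two_mul_card_good (F := F) (m := m)
  rw [hsplit, mul_add, mul_add, mul_one, hM] at hg
  change Fintype.card F ^ (2 * m - invRank t) + Nat.card M = _ at hV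
  omega

theorem q_spT (a : V) (c : F) (v : V) :
    q₀ (((spT a c : Sp) : Mat) *ᵥ v) = q₀ v + (c ^ 2 * q₀ a + c) * B v a ^ 2 := by
  rw [spT_mulVec, q_add, q_smul, form_smul_right]
  ring

theorem exists_shift (g : Sp) : ∃ b : V, Good b ∧ ∀ v, q₀ ((g : Mat) *ᵥ v) = q₀ v + B b v ^ 2 := by
  have step : ∀ (x : Sp) (a : V) (c : F), (∃ b : V, Good b ∧ ∀ v, q₀ ((x : Mat) *ᵥ v) = q₀ v + B b v ^ 2) →
      ∃ b : V, Good b ∧ ∀ v, q₀ (((x * spT a c : Sp) : Mat) *ᵥ v) = q₀ v + B b v ^ 2 := by
    rintro x a c ⟨b, hb, hx⟩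
    obtain ⟨k, hk⟩ := exists_sqrt (c ^ 2 * q₀ a + c + c ^ 2 * B b a ^ 2)
    refine ⟨b + k • a, ?_, fun v => ?_⟩
    · show q₀ (b + k • a) ∈ AS F
      rw [q_add, q_smul, form_smul_right, add_assoc]
      refine add_mem hb ⟨c * (q₀ a + B b a ^ 2) + k * B b a, ?_⟩
      show (c * (q₀ a + B b a ^ 2) + k * B b a) ^ 2 + (c * (q₀ a + B b a ^ 2) + k * B b a) = _
      rw [CharTwo.add_sq, mul_pow, mul_pow, hk, CharTwo.add_sq (q₀ a)]
      linear_combination (c ^ 2 * B b a ^ 4 + c * B b a ^ 2) * (CharTwo.two_eq_zero : (2 : F) = 0)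
    · rw [mul_mulVec, hx, q_spT, spT_mulVec, form_add_right, form_smul_right, form_add_left, form_smul_left,
        form_comm a v, CharTwo.add_sq, CharTwo.add_sq, mul_pow k, hk]
      ring
  have hg : g ∈ Subgroup.closure (transvectionSet m F) := by rw [closure_transvectionSet]; trivial
  induction hg using Subgroup.closure_induction_right with
  | one => exact ⟨0, by simp [Good, Cfsg.quadFormPlus, zero_mem], fun v => by simp [form_zero_left]⟩
  | mul_right x hx y hy ih =>
    obtain ⟨a, c, hy⟩ := hy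
    rw [show y = spT a c from Subtype.ext hy]
    exact step x a c ih
  | mul_inv_cancel x hx y hy ih =>
    obtain ⟨a, c, hy⟩ := hy
    rw [show y = spT a c from Subtype.ext hy, spT_inv]
    exact step x a (-c) ih

theorem shift_unique {b b' : V} (h : ∀ v, B b v ^ 2 = B b' v ^ 2) : b = b' := by
  have hs : b + b' = 0 := eq_zero_of_form_eq_zero fun v => by
    rw [form_add_left, CharTwo.add_eq_zero]
    exact frobenius_inj F 2 (h v)
  funext i
  exact CharTwo.add_eq_zero.1 (congrFun hs i)

theorem exists_coeff {b : V} (hb : Good b) : ∃ c : F, c ^ 2 * q₀ b + c = 1 := by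
  by_cases h : q₀ b = 0
  · exact ⟨1, by rw [h]; ring⟩
  · obtain ⟨d, hd⟩ := hb
    refine ⟨d / q₀ b, ?_⟩
    have hd' : d ^ 2 + d = q₀ b := hd
    field_simp
    linear_combination hd'

/-- The elements of `Sp` commuting with `t` and preserving the form. -/
abbrev Stab (t : Sp) : Type _ := {g : Sp // g * t = t * g ∧ ∀ v, q₀ ((g : Mat) *ᵥ v) = q₀ v}

include ht in
theorem card_centralizer_eq (hiso : ∀ u, q₀ ((t : Mat) *ᵥ u) = q₀ u) :
    Nat.card (Subgroup.centralizer ({t} : Set Sp)) =
      Nat.card {b : {v : V // (t : Mat) *ᵥ v = v} // Good b.1} * Nat.card (Stab t) := by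
  classical
  rw [← Nat.card_prod]
  choose c hc using fun b : {b : {v : V // (t : Mat) *ᵥ v = v} // Good b.1} => exists_coeff b.2
  have hT : ∀ b, q₀ ∘ (fun v => ((spT b.1.1 (c b) : Sp) : Mat) *ᵥ v) = fun v => q₀ v + B b.1.1 v ^ 2 :=
    fun b => funext fun v => by
      show q₀ _ = _
      rw [q_spT, hc, one_mul, form_comm]
  have hcomm : ∀ b, spT b.1.1 (c b) * t = t * spT b.1.1 (c b) := fun b => by
    have h := conj_spT t b.1.1 (c b)
    rw [b.1.2, mul_inv_eq_iff_eq_mul] at h
    exact h.symm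
  refine (Nat.card_congr (Equiv.ofBijective
    (fun p : {b : {v : V // (t : Mat) *ᵥ v = v} // Good b.1} × Stab t =>
      (⟨p.2.1 * spT p.1.1.1 (c p.1), Subgroup.mem_centralizer_singleton_iff.2 (by
        rw [mul_assoc, hcomm, ← mul_assoc, p.2.2.1, mul_assoc])⟩ : Subgroup.centralizer ({t} : Set Sp)))
    ⟨?_, ?_⟩)).symm
  · rintro ⟨b, s⟩ ⟨b', s'⟩ h
    have h' : s.1 * spT b.1.1 (c b) = s'.1 * spT b'.1.1 (c b') := congrArg Subtype.val h
    have hb : b = b' := Subtype.ext (Subtype.ext (shift_unique fun v => by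
      have e := congrArg (fun g : Sp => q₀ ((g : Mat) *ᵥ v)) h'
      simp only [mul_mulVec, s.2.2, s'.2.2] at e
      have e1 := congrFun (hT b) v
      have e2 := congrFun (hT b') v
      simp only [Function.comp_apply] at e1 e2
      rw [e1, e2] at e
      exact add_left_cancel e))
    subst hb
    exact Prod.ext rfl (Subtype.ext (mul_right_cancel h'))
  · rintro ⟨g, hg⟩
    rw [Subgroup.mem_centralizer_singleton_iff] at hg
    obtain ⟨b, hb, hgb⟩ := exists_shift g
    have hfix : (t : Mat) *ᵥ b = b := shift_unique fun v => by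
      have h1 : q₀ ((g : Mat) *ᵥ ((t : Mat) *ᵥ v)) = q₀ ((g : Mat) *ᵥ v) := by
        rw [← mul_mulVec, hg, mul_mulVec, hiso]
      rw [hgb, hgb, hiso, add_right_inj] at h1
      have h2 := form_mulVec t b ((t : Mat) *ᵥ v)
      rw [← mul_mulVec, ht, OneMemClass.coe_one, one_mulVec] at h2
      rw [h2, h1]
    let p : {b : {v : V // (t : Mat) *ᵥ v = v} // Good b.1} := ⟨⟨b, hfix⟩, hb⟩
    refine ⟨(p, ⟨g * (spT b (c p))⁻¹, ?_, fun v => ?_⟩), Subtype.ext (inv_mul_cancel_right g _)⟩
    · have h1 : (spT b (c p))⁻¹ * t = t * (spT b (c p))⁻¹ := by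
        rw [inv_mul_eq_iff_eq_mul, ← mul_assoc, hcomm p, mul_inv_cancel_right]
      rw [mul_assoc, h1, ← mul_assoc, hg, mul_assoc]
    · obtain ⟨w, rfl⟩ : ∃ w, ((spT b (c p) : Sp) : Mat) *ᵥ w = v := ⟨_, mulVec_inv_cancel (spT b (c p)) v⟩
      have e1 := congrFun (hT p) w
      simp only [Function.comp_apply] at e1
      rw [← mul_mulVec, inv_mul_cancel_right, hgb, e1]

/-- An isometry of the hyperbolic form as a symplectic matrix. -/
def toSymp (g : Cfsg.isometryGroup F q₀) : Sp :=
  ⟨((g : GL (Fin m ⊕ Fin m) F) : Mat), (mem_symplecticGroup_iff_form _).2 fun u v => by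
    have h := mem_isometryGroup.1 g.2
    have h1 := h (u + v)
    rw [mulVec_add, q_add, q_add, h u, h v] at h1
    exact add_left_cancel h1⟩

/-- The centraliser in the orthogonal group. -/
noncomputable def stabEquiv (x : Cfsg.isometryGroup F q₀) :
    {g : Cfsg.isometryGroup F q₀ // g * x = x * g} ≃ Stab (toSymp x) where
  toFun g := ⟨toSymp g.1, Subtype.ext (congrArg (fun y : Cfsg.isometryGroup F q₀ =>
    ((y : GL (Fin m ⊕ Fin m) F) : Mat)) g.2), fun v => mem_isometryGroup.1 g.1.2 v⟩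
  invFun g := ⟨⟨Matrix.GeneralLinearGroup.mkOfDetNeZero (g.1 : Mat) (SymplecticGroup.symplectic_det g.1.2).ne_zero,
      mem_isometryGroup.2 fun v => g.2.2 v⟩, Subtype.ext (Units.ext (congrArg Subtype.val g.2.1))⟩
  left_inv g := Subtype.ext (Subtype.ext (Units.ext rfl))
  right_inv g := Subtype.ext (Subtype.ext rfl)

theorem toSymp_sq {x : Cfsg.isometryGroup F q₀} (hx : x * x = 1) : toSymp x * toSymp x = 1 :=
  Subtype.ext (congrArg (fun y : Cfsg.isometryGroup F q₀ => ((y : GL (Fin m ⊕ Fin m) F) : Mat)) hx)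

theorem toSymp_invAlt_iff (x : Cfsg.isometryGroup F q₀) :
    InvAlt (toSymp x) ↔ ∀ v, q₀ (((x : GL (Fin m ⊕ Fin m) F) : Mat).mulVec v +
      v) = 0 := by
  have h : ∀ v, q₀ (disp (toSymp x) v) = B v ((toSymp x : Mat) *ᵥ v) := fun v =>
    q_disp v fun u => mem_isometryGroup.1 x.2 u
  simp only [InvAlt, ← h, disp_apply]
  rfl

theorem good_fixed_card_pos : 0 < Nat.card {b : {v : V // (t : Mat) *ᵥ v = v} // Good b.1} :=
  haveI : Nonempty {b : {v : V // (t : Mat) *ᵥ v = v} // Good b.1} :=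
    ⟨⟨⟨0, mulVec_zero _⟩, by simp [Good, Cfsg.quadFormPlus, zero_mem]⟩⟩
  Nat.card_pos

/-- The centraliser in `Ω` has index two in that in `O⁺` when a non-singular vector is fixed. -/
theorem two_mul_card_omega_centralizer (hm : 1 ≤ m) (hexc : ¬ (Nat.card F = 2 ∧ Fintype.card (Fin m ⊕ Fin m) = 4))
    (x : Cfsg.isometryGroup F q₀) {a : V} (ha : q₀ a ≠ 0)
    (hfix : ((x : GL (Fin m ⊕ Fin m) F) : Mat) *ᵥ a = a) :
    2 * Nat.card {g : ↥(Cfsg.Omega F q₀) // (g : Cfsg.isometryGroup F q₀) * x = x * g} =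
      Nat.card {g : Cfsg.isometryGroup F q₀ // g * x = x * g} := by
  have hQ := isNondegenerateQuadraticForm_quadFormPlus (F := F) m
  let r : Cfsg.isometryGroup F q₀ := ⟨reflection hQ ha, reflection_mem hQ ha⟩
  have hrx : r * x = x * r := by
    apply Subtype.ext
    have e := conj_reflection hQ x.2 ha ha hfix
    rw [mul_inv_eq_iff_eq_mul] at e
    exact e.symm
  have hidx := CfsgLib.Classical.Orth.index_omega_even hQ (CharTwo.two_eq_zero : (2 : F) = 0)
    (by simp; omega) hexc
  have hr : r ∉ Cfsg.Omega F q₀ := by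
    intro hr
    rcases mem_omega_or_reflection_mul_mem hQ hexc ha (show (reflection hQ ha) ∈ Cfsg.isometryGroup F q₀ from r.2)
      with h | h
    all_goals
      have := (involution_mem_omega_iff hQ hexc r).1 hr
    all_goals
      exact absurd this (reflection_rank_odd hm ha)
  rw [← Nat.card_congr (Equiv.subtypeSubtypeEquivSubtypeInter (fun g : Cfsg.isometryGroup F q₀ => g * x = x * g)
    (fun g => g ∈ Cfsg.Omega F q₀) |>.trans ((Equiv.subtypeEquivRight fun g => and_comm).trans
    (Equiv.subtypeSubtypeEquivSubtypeInter (fun g => g ∈ Cfsg.Omega F q₀) fun g => g * x = x * g).symm))]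
  refine two_mul_card_subtype _
    { toFun := fun g => ⟨g.1 * r, by rw [mul_assoc, hrx, ← mul_assoc, g.2, mul_assoc]⟩
      invFun := fun g => ⟨g.1 * r⁻¹, by
        have h1 : r⁻¹ * x = x * r⁻¹ := by rw [inv_mul_eq_iff_eq_mul, ← mul_assoc, hrx, mul_inv_cancel_right]
        rw [mul_assoc, h1, ← mul_assoc, g.2, mul_assoc]⟩
      left_inv := fun g => Subtype.ext (mul_inv_cancel_right _ _)
      right_inv := fun g => Subtype.ext (inv_mul_cancel_right _ _) } fun g => ?_
  show g.1 * r ∈ Cfsg.Omega F q₀ ↔ _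
  rw [Subgroup.mul_mem_iff_of_index_two hidx]
  simp [hr]
where
  /-- A reflection moves exactly a line. -/
  reflection_rank_odd (hm : 1 ≤ m) {a : V} (ha : q₀ a ≠ 0) :
      ¬ Even (((reflection (isNondegenerateQuadraticForm_quadFormPlus (F := F) m) ha : GL (Fin m ⊕ Fin m) F) : Mat) - 1).rank := by
    have hQ := isNondegenerateQuadraticForm_quadFormPlus (F := F) m
    suffices h : ((((reflection hQ ha : GL (Fin m ⊕ Fin m) F)) : Mat) - 1).rank = 1 by rw [h]; simp
    have hr : LinearMap.range ((((reflection hQ ha : GL (Fin m ⊕ Fin m) F)) : Mat) - 1).mulVecLin =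
        Submodule.span F {a} := by
      obtain ⟨w, hw⟩ : ∃ w, bform hQ a w = 1 := by
        obtain ⟨-, y, hy⟩ := hQ.nondegenerate a (fun h => ha (by simp [h, Cfsg.quadFormPlus]))
        refine ⟨(bform hQ a y)⁻¹ • y, ?_⟩
        rw [map_smul, smul_eq_mul]
        exact inv_mul_cancel₀ hy
      have he : ∀ v, ((((reflection hQ ha : GL (Fin m ⊕ Fin m) F)) : Mat) - 1).mulVecLin v =
          (-((q₀ a)⁻¹ * bform hQ a v)) • a := fun v => by
        rw [mulVecLin_apply, sub_mulVec, one_mulVec, reflection_mulVec hQ, neg_smul]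
        abel
      refine le_antisymm ?_ ((Submodule.span_singleton_le_iff_mem _ _).2 ⟨(-q₀ a) • w, ?_⟩)
      · rintro _ ⟨v, rfl⟩
        rw [he]
        exact Submodule.smul_mem _ _ (Submodule.mem_span_singleton_self a)
      · rw [he, map_smul, hw, smul_eq_mul, mul_one, mul_neg, neg_neg, inv_mul_cancel₀ ha, one_smul]
    rw [Matrix.rank, hr, finrank_span_singleton (fun h => ha (by simp [h, Cfsg.quadFormPlus]))]

/-- The centraliser lies in `Ω` when `range (x - 1)` is a maximal totally singular subspace. -/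
theorem mem_omega_of_commute_maxTS (hm : 1 ≤ m)
    (hexc : ¬ (Nat.card F = 2 ∧ Fintype.card (Fin m ⊕ Fin m) = 4)) {x g : Cfsg.isometryGroup F q₀}
    (hU : IsMaxTS q₀ (LinearMap.range (disp (toSymp x)))) (hg : g * x = x * g) : g ∈ Cfsg.Omega F q₀ := by
  have hQ := isNondegenerateQuadraticForm_quadFormPlus (F := F) m
  have hc : toSymp g * toSymp x = toSymp x * toSymp g :=
    Subtype.ext (congrArg (fun y : Cfsg.isometryGroup F q₀ => ((y : GL (Fin m ⊕ Fin m) F) : Mat)) hg)
  have hd : ∀ v, (toSymp g : Mat) *ᵥ disp (toSymp x) v = disp (toSymp x) ((toSymp g : Mat) *ᵥ v) := fun v => by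
    rw [disp_apply, disp_apply, mulVec_add, ← mul_mulVec, ← mul_mulVec, hc]
  have himg : imgSub (g : GL (Fin m ⊕ Fin m) F) (LinearMap.range (disp (toSymp x))) =
      LinearMap.range (disp (toSymp x)) := by
    refine Submodule.eq_of_le_of_finrank_eq ?_ (finrank_imgSub _ _)
    rintro _ ⟨_, ⟨v, rfl⟩, rfl⟩
    exact ⟨(toSymp g : Mat) *ᵥ v, (hd v).symm⟩
  have hclass : classHom hQ hU g = 1 := by
    rw [classHom_eq_one_iff, himg, inf_idem]
    exact ⟨_, rfl⟩
  obtain ⟨a, ha⟩ : ∃ a, q₀ a ≠ 0 := by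
    refine ⟨Pi.single (.inl ⟨0, hm⟩) 1 + Pi.single (.inr ⟨0, hm⟩) 1, ?_⟩
    simp [Cfsg.quadFormPlus, Pi.single_apply]
  rcases mem_omega_or_reflection_mul_mem hQ hexc ha g.2 with ⟨y, hy, hye⟩ | ⟨y, hy, hye⟩
  · rwa [show g = y from Subtype.ext hye.symm]
  · exfalso
    have h1 : classHom hQ hU y = 1 := Abelianization.commutator_subset_ker (classHom hQ hU) hy
    rw [show y = ⟨_, reflection_mem hQ ha⟩ * g from Subtype.ext hye, map_mul, hclass, mul_one,
      classHom_eq_one_iff] at h1
    exact Nat.not_even_iff_odd.2 (reflection_swaps_class hQ hU ha) h1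

/-- `|C_O(x)|·(number of forms in the orbit) = |C_Sp(x)|`. -/
theorem card_orth_centralizer (x : Cfsg.isometryGroup F q₀) (hx : x * x = 1) :
    Nat.card {b : {v : V // (toSymp x : Mat) *ᵥ v = v} // Good b.1} *
        Nat.card {g : Cfsg.isometryGroup F q₀ // g * x = x * g} =
      Nat.card (Subgroup.centralizer ({toSymp x} : Set Sp)) := by
  rw [Nat.card_congr (stabEquiv x), ← card_centralizer_eq (toSymp_sq hx) fun u => mem_isometryGroup.1 x.2 u]

/-- The case of a non-alternating involution. -/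
theorem card_omega_nonalt (hexc : ¬ (Nat.card F = 2 ∧ Fintype.card (Fin m ⊕ Fin m) = 4))
    (x : Cfsg.isometryGroup F q₀) (hx : x * x = 1) (hna : ¬ InvAlt (toSymp x)) :
    Fintype.card F ^ (2 * m - invRank (toSymp x)) *
        Nat.card {g : ↥(Cfsg.Omega F q₀) // (g : Cfsg.isometryGroup F q₀) * x = x * g} =
      Nat.card (Subgroup.centralizer ({toSymp x} : Set Sp)) := by
  have hiso : ∀ u, q₀ ((toSymp x : Mat) *ᵥ u) = q₀ u := fun u => mem_isometryGroup.1 x.2 u
  have hm : 1 ≤ m := by
    obtain ⟨hle, -, h0⟩ := rank_le_and_parity (toSymp_sq hx)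
    have : invRank (toSymp x) ≠ 0 := fun h => hna (h0 h)
    omega
  obtain ⟨v, hv⟩ : ∃ v, q₀ (disp (toSymp x) v) ≠ 0 := by
    by_contra hcon
    push Not at hcon
    exact hna fun v => (q_disp v hiso).symm.trans (hcon v)
  have h2 := two_mul_card_omega_centralizer hm hexc x hv
    ((good_fixed_kernel (t := toSymp x) _).1 (LinearMap.mem_ker.2 (disp_disp (toSymp_sq hx) v)))
  rw [← card_orth_centralizer x hx, ← two_mul_card_good_fixed_nonalt (toSymp_sq hx) hiso hna, ← h2]
  ring

/-- The case of an alternating involution. -/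
theorem card_omega_alt (hm : 1 ≤ m) (hexc : ¬ (Nat.card F = 2 ∧ Fintype.card (Fin m ⊕ Fin m) = 4))
    (x : Cfsg.isometryGroup F q₀) (hx : x * x = 1) (ha : InvAlt (toSymp x)) :
    (if invRank (toSymp x) = m then Fintype.card F ^ m
      else Fintype.card F ^ m + Fintype.card F ^ (2 * m - invRank (toSymp x))) *
        Nat.card {g : ↥(Cfsg.Omega F q₀) // (g : Cfsg.isometryGroup F q₀) * x = x * g} =
      Nat.card (Subgroup.centralizer ({toSymp x} : Set Sp)) := by
  have hiso : ∀ u, q₀ ((toSymp x : Mat) *ᵥ u) = q₀ u := fun u => mem_isometryGroup.1 x.2 u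
  have hgood := two_mul_card_good_fixed_alt (toSymp_sq hx) hiso ha
  rw [← card_orth_centralizer x hx]
  split_ifs with hs
  · have hU : IsMaxTS q₀ (LinearMap.range (disp (toSymp x))) := by
      refine ⟨?_, ?_⟩
      · rintro _ ⟨v, rfl⟩
        exact (q_disp v hiso).trans (ha v)
      · show 2 * invRank (toSymp x) = _
        rw [hs, Fintype.card_sum, Fintype.card_fin]; omega
    rw [hs, show 2 * m - m = m by omega] at hgood
    congr 1
    · omega
    · exact Nat.card_congr
        { toFun := fun g => ⟨g.1.1, g.2⟩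
          invFun := fun g => ⟨⟨g.1, mem_omega_of_commute_maxTS hm hexc hU g.2⟩, g.2⟩ }
  · have hQ := isNondegenerateQuadraticForm_quadFormPlus (F := F) m
    have hsq : (x : Cfsg.isometryGroup F q₀) * x = 1 := hx
    rcases involution_fixed_dichotomy hQ hsq with ⟨v, hv, hqv⟩ | ⟨-, hr⟩
    · rw [← hgood, ← two_mul_card_omega_centralizer hm hexc x hqv hv]
      ring
    · exfalso
      apply hs
      rw [Fintype.card_sum, Fintype.card_fin] at hr
      show (((x : GL (Fin m ⊕ Fin m) F) : Mat) - 1).rank = m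
      omega

end CfsgLib.OrthTwoCent
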